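import Mathlib
import Cfsg.Agent.Lib.PLocal.PSolvable
import Cfsg.Agent.Lib.Core.MinNormal
import Cfsg.Agent.Lib.Core.Frattini
import Cfsg.Agent.Lib.Coprime.Abelian
import Cfsg.Agent.Lib.SolvStruct.Util

/-!
Elementwise `p`-steps and `p'`-steps; groups whose maximal subgroups are `p`-nilpotent or of prime
index.
-/

set_option autoImplicit false

namespace CfsgLib.SolvStruct

open Subgroup Pointwise Cfsg

universe u

variable {G : Type u} [Group G] {p : ℕ}

/-- `B` is a `p`-group modulo `A`. -/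
def PStep (p : ℕ) (A B : Subgroup G) : Prop := ∀ x ∈ B, ∃ k : ℕ, x ^ p ^ k ∈ A

/-- `B` is a `p'`-group modulo `A`. -/
def QStep (p : ℕ) (A B : Subgroup G) : Prop := ∀ x ∈ B, x ^ p ∈ A → x ∈ A

theorem PStep.inf {A B A' B' : Subgroup G} (h : PStep p A B) (h' : PStep p A' B') :
    PStep p (A ⊓ A') (B ⊓ B') := by
  intro x hx
  obtain ⟨k, hk⟩ := h x hx.1
  obtain ⟨l, hl⟩ := h' x hx.2
  refine ⟨k + l, ?_, ?_⟩
  · rw [pow_add, pow_mul]; exact A.pow_mem hk _
  · rw [add_comm, pow_add, pow_mul]; exact A'.pow_mem hl _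

theorem QStep.inf {A B A' B' : Subgroup G} (h : QStep p A B) (h' : QStep p A' B') :
    QStep p (A ⊓ A') (B ⊓ B') := fun x hx h1 => ⟨h x hx.1 h1.1, h' x hx.2 h1.2⟩

theorem PStep.comap {K : Type*} [Group K] (f : K →* G) {A B : Subgroup G} (h : PStep p A B) :
    PStep p (A.comap f) (B.comap f) := fun x hx =>
  (h _ hx).imp fun _ hk => by rwa [mem_comap, map_pow]

theorem QStep.comap {K : Type*} [Group K] (f : K →* G) {A B : Subgroup G} (h : QStep p A B) :
    QStep p (A.comap f) (B.comap f) := fun x hx h1 => h _ hx (by rwa [mem_comap, map_pow] at h1)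

theorem QStep.trans {A B C : Subgroup G} (hAB : A ≤ B) (h : QStep p A B) (h' : QStep p B C) :
    QStep p A C := fun x hx h1 => h x (h' x hx (hAB h1)) h1

theorem PStep.trans {A B C : Subgroup G} (h : PStep p A B) (h' : PStep p B C) :
    PStep p A C := by
  intro x hx
  obtain ⟨k, hk⟩ := h' x hx
  obtain ⟨l, hl⟩ := h _ hk
  exact ⟨k + l, by rwa [pow_add, pow_mul]⟩

theorem PStep.refl (A : Subgroup G) : PStep p A A := fun _ hx => ⟨0, by simpa using hx⟩

theorem QStep.refl (A : Subgroup G) : QStep p A A := fun _ hx _ => hx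

theorem pStep_bot_of_isPGroup {A : Subgroup G} (h : IsPGroup p A) : PStep p ⊥ A := by
  intro x hx
  obtain ⟨k, hk⟩ := h ⟨x, hx⟩
  exact ⟨k, congrArg Subtype.val hk⟩

theorem qStep_bot_of_not_dvd (hp : p.Prime) {A : Subgroup G} (h : ¬ p ∣ Nat.card A) :
    QStep p ⊥ A := by
  intro x hx h1
  rw [mem_bot, ← orderOf_eq_one_iff]
  exact Nat.eq_one_of_dvd_coprimes ((Nat.Prime.coprime_iff_not_dvd hp).2 h)
    (orderOf_dvd_of_pow_eq_one h1) (orderOf_dvd_natCard A hx)

theorem qStep_top_of_not_dvd (hp : p.Prime) {A : Subgroup G} [A.Normal] (h : ¬ p ∣ A.index) :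
    QStep p A ⊤ := fun _ _ h1 =>
  mem_of_pow_mem_of_coprime h1 (A.pow_index_mem _) ((Nat.Prime.coprime_iff_not_dvd hp).2 h)

theorem pStep_top_of_index {A : Subgroup G} [A.Normal] {k : ℕ} (h : A.index ∣ p ^ k) :
    PStep p A ⊤ := by
  intro x _
  obtain ⟨c, hc⟩ := h
  exact ⟨k, by rw [hc, pow_mul]; exact A.pow_mem (A.pow_index_mem x) c⟩

theorem QStep.not_dvd [Finite G] (hp : p.Prime) {A B : Subgroup G} [A.Normal] (h : QStep p A B) :
    ¬ p ∣ A.relIndex B := by
  intro hd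
  have := Fact.mk hp
  obtain ⟨x, hx⟩ := exists_prime_orderOf_dvd_card' (G := B ⧸ A.subgroupOf B) p hd
  obtain ⟨x, rfl⟩ := QuotientGroup.mk_surjective x
  have h1 : x ^ p ∈ A.subgroupOf B := by
    rw [← QuotientGroup.eq_one_iff, QuotientGroup.mk_pow, ← hx, pow_orderOf_eq_one]
  have h2 : x ∈ A.subgroupOf B := h x x.2 h1
  rw [(QuotientGroup.eq_one_iff x).2 h2, orderOf_one] at hx
  exact hp.one_lt.ne hx

theorem PStep.exists_relIndex [Finite G] (hp : p.Prime) {A B : Subgroup G} [A.Normal]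
    (h : PStep p A B) : ∃ k, A.relIndex B = p ^ k := by
  have := Fact.mk hp
  have h1 : IsPGroup p (B ⧸ A.subgroupOf B) := by
    intro x
    obtain ⟨x, rfl⟩ := QuotientGroup.mk_surjective x
    obtain ⟨k, hk⟩ := h x x.2
    exact ⟨k, by rw [← QuotientGroup.mk_pow, QuotientGroup.eq_one_iff]; exact hk⟩
  exact IsPGroup.iff_card.1 h1

/-- A chain of type `p', p, p', p, p'` from `N` to the whole group, the last step trivial for
`p = 2`. -/
def Chain2 (p : ℕ) (N : Subgroup G) : Prop :=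
  ∃ A B C D : Subgroup G, A.Normal ∧ B.Normal ∧ C.Normal ∧ D.Normal ∧ N ≤ A ∧ A ≤ B ∧ B ≤ C ∧
    C ≤ D ∧ QStep p N A ∧ PStep p A B ∧ QStep p B C ∧ PStep p C D ∧ QStep p D ⊤ ∧ (p = 2 → D = ⊤)

theorem Chain2.of_quotient {N : Subgroup G} [N.Normal] (h : Chain2 p (⊥ : Subgroup (G ⧸ N))) :
    Chain2 p N := by
  obtain ⟨A, B, C, D, hA, hB, hC, hD, -, h1, h2, h3, h4, h5, h6, h7, h8, h9⟩ := h
  let f := QuotientGroup.mk' N
  refine ⟨A.comap f, B.comap f, C.comap f, D.comap f, inferInstance, inferInstance, inferInstance,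
    inferInstance, le_comap_mk' _ _, comap_mono h1, comap_mono h2, comap_mono h3, ?_, h5.comap f,
    h6.comap f, h7.comap f, h8.comap f, fun h => by rw [h9 h, comap_top]⟩
  have := h4.comap f
  rwa [MonoidHom.comap_bot, QuotientGroup.ker_mk'] at this

theorem Chain2.inf {N L : Subgroup G} (h : Chain2 p N) (h' : Chain2 p L) : Chain2 p (N ⊓ L) := by
  obtain ⟨A, B, C, D, hA, hB, hC, hD, h0, h1, h2, h3, h4, h5, h6, h7, h8, h9⟩ := h
  obtain ⟨A', B', C', D', hA', hB', hC', hD', h0', h1', h2', h3', h4', h5', h6', h7', h8', h9'⟩ := h'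
  refine ⟨A ⊓ A', B ⊓ B', C ⊓ C', D ⊓ D', inferInstance, inferInstance, inferInstance,
    inferInstance, inf_le_inf h0 h0', inf_le_inf h1 h1', inf_le_inf h2 h2', inf_le_inf h3 h3',
    h4.inf h4', h5.inf h5', h6.inf h6', h7.inf h7', ?_, fun h => by rw [h9 h, h9' h, top_inf_eq]⟩
  simpa using h8.inf h8'

/-- A normal subgroup which is a `p'`-group modulo a `p`-subgroup of the Frattini subgroup has a
normal `p`-complement. -/
theorem exists_normal_compl_of_le_frattini [Finite G] (hp : p.Prime) {N A : Subgroup G} [N.Normal]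
    [hA : A.Normal] (hN : IsPGroup p N) (hF : N ≤ frattini G) (hNA : N ≤ A)
    (h : ¬ p ∣ N.relIndex A) :
    ∃ H : Subgroup G, H.Normal ∧ N ⊔ H = A ∧ Nat.card H = N.relIndex A := by
  have := Fact.mk hp
  have hc : (N.relIndex A).Coprime (Nat.card N) :=
    Coprime.coprime_card_of_isPGroup hN ((Nat.Prime.coprime_iff_not_dvd hp).2 h).symm
  have hNn : ∀ K : Subgroup G, K ≤ normalizer (N : Set G) := fun K => by
    rw [normalizer_eq_top]; exact le_top
  obtain ⟨H, h1, -, h3, h4⟩ := Coprime.exists_complement_of_le_normalizer hNA (hNn A) hc.symm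
  refine ⟨H, ?_, h3, h4⟩
  rw [← normalizer_eq_top_iff]
  apply frattini_nongenerating
  rw [eq_top_iff]
  intro g _
  obtain ⟨n, hn, e⟩ := Coprime.exists_conj_smul_eq_of_le_sup (K := N) (A := MulAut.conj g • H)
    (S := H) (hNn H) (by
      rw [h3]
      exact Coprime.conj_smul_le_iff.2 fun x hx => hA.conj_mem x (h1 hx) g)
    (by rw [Coprime.card_conj_smul, h4]; exact hc) (Or.inr (Coprime.isSolvable_of_isPGroup hN))
    (Coprime.card_conj_smul g H).ge
  rw [smul_smul, ← map_mul, ← Coprime.mem_normalizer_iff_conj_smul_eq] at e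
  have := mul_mem (mem_sup_right (inv_mem (hF hn)) : n⁻¹ ∈ normalizer (H : Set G) ⊔ frattini G)
    (mem_sup_left e)
  rwa [inv_mul_cancel_left] at this

/-- Every maximal subgroup is `p`-nilpotent or of prime index. -/
def MaxNilOrPrime (p : ℕ) (G : Type u) [Group G] : Prop :=
  ∀ M : Subgroup G, IsCoatom M →
    (∃ K : Subgroup M, K.Normal ∧ ¬ p ∣ Nat.card K ∧ ∃ k : ℕ, K.index = p ^ k) ∨ M.index.Prime

theorem exists_compl_map {M Q : Type*} [Group M] [Group Q] (hp : p.Prime) {f : M →* Q}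
    (hf : Function.Surjective f)
    (h : ∃ K : Subgroup M, K.Normal ∧ ¬ p ∣ Nat.card K ∧ ∃ k : ℕ, K.index = p ^ k) :
    ∃ K : Subgroup Q, K.Normal ∧ ¬ p ∣ Nat.card K ∧ ∃ k : ℕ, K.index = p ^ k := by
  obtain ⟨K, h1, h2, k, h3⟩ := h
  refine ⟨K.map f, h1.map f hf, fun h => h2 (h.trans (card_map_dvd _ _)), ?_⟩
  obtain ⟨j, -, hj⟩ := (Nat.dvd_prime_pow hp).1 (h3 ▸ index_map_dvd K hf)
  exact ⟨j, hj⟩

theorem MaxNilOrPrime.quotient (hp : p.Prime) (h : MaxNilOrPrime p G) (N : Subgroup G)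
    [N.Normal] : MaxNilOrPrime p (G ⧸ N) := by
  intro M hM
  rcases h _ ((isCoatom_comap_of_surjective (QuotientGroup.mk'_surjective N)) hM) with h | h
  · exact Or.inl (exists_compl_map hp
      (MonoidHom.subgroupComap_surjective_of_surjective _ M (QuotientGroup.mk'_surjective N)) h)
  · exact Or.inr (by rwa [index_comap_mk'] at h)

theorem chain2_aux [hp : Fact p.Prime] (n : ℕ) : ∀ (G : Type u) [Group G] [Finite G],
    Nat.card G = n → IsPSolvable p G → MaxNilOrPrime p G → Chain2 p (⊥ : Subgroup G) := by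
  induction n using Nat.strong_induction_on with
  | _ n ih =>
  intro G _ _ hn hG hmax
  have IH : ∀ (N : Subgroup G) [N.Normal], N ≠ ⊥ → Chain2 p N := by
    intro N _ hN
    refine (ih _ ?_ (G ⧸ N) rfl (PLocal.PSolv.quotient hG N) (hmax.quotient hp.out N)).of_quotient
    rw [← hn, ← N.card_mul_index]
    exact lt_mul_of_one_lt_left Nat.card_pos (N.one_lt_card_iff_ne_bot.2 hN)
  rcases subsingleton_or_nontrivial G with hs | hs
  · refine ⟨⊥, ⊥, ⊥, ⊥, inferInstance, inferInstance, inferInstance, inferInstance, le_rfl, le_rfl,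
      le_rfl, le_rfl, .refl _, .refl _, .refl _, .refl _, ?_, fun _ => Subsingleton.elim _ _⟩
    rw [Subsingleton.elim ⊤ (⊥ : Subgroup G)]
    exact .refl _
  by_cases h1 : ∃ N : Subgroup G, N.Normal ∧ N ≠ ⊥ ∧ ¬ p ∣ Nat.card N
  · obtain ⟨N, hN, h1, h2⟩ := h1
    obtain ⟨A, B, C, D, hA, hB, hC, hD, h0, h3, h4, h5, h6, h7⟩ := IH N h1
    exact ⟨A, B, C, D, hA, hB, hC, hD, bot_le, h3, h4, h5,
      QStep.trans bot_le (qStep_bot_of_not_dvd hp.out h2) h6, h7⟩
  push Not at h1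
  obtain ⟨N, hNn, hN, -, hmin⟩ := Core.exists_minimal_normal_le (K := (⊤ : Subgroup G)) top_ne_bot
  have hNp : IsPGroup p N := by
    obtain ⟨K, hK, h2, h3, h4⟩ := PLocal.PSolv.exists_normal_le hG N hN
    rw [← (hmin K hK h3).resolve_left h2]
    exact h4.resolve_right fun h =>
      (Nat.Prime.coprime_iff_not_dvd hp.out).1 h.symm (h1 K hK h2)
  by_cases h2 : ∃ L : Subgroup G, L.Normal ∧ L ≠ ⊥ ∧ N ⊓ L = ⊥
  · obtain ⟨L, hL, h2, h3⟩ := h2
    exact h3 ▸ (IH N hN).inf (IH L h2)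
  push Not at h2
  by_cases h3 : N ≤ frattini G
  · obtain ⟨A, B, C, D, hA, hB, hC, hD, h0, h4, h5, h6, h7, h8, h9⟩ := IH N hN
    obtain ⟨H, hH, e1, e2⟩ := exists_normal_compl_of_le_frattini hp.out hNp h3 h0
      (h7.not_dvd hp.out)
    have : H = ⊥ := by
      by_contra hne
      exact h7.not_dvd hp.out (e2 ▸ h1 H hH hne)
    rw [this, sup_bot_eq] at e1
    subst e1
    exact ⟨⊥, B, C, D, inferInstance, hB, hC, hD, le_rfl, bot_le, h5, h6, .refl _,
      (pStep_bot_of_isPGroup hNp).trans h8, h9⟩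
  obtain ⟨M, hM, hNM⟩ := Core.exists_isCoatom_sup_eq_top_of_not_le_frattini h3
  have := Coprime.isSolvable_of_isPGroup hNp
  obtain ⟨-, -, hNc, -⟩ := Core.isElementaryAbelian_of_minimal_normal hN hmin
  have hNC : N ≤ centralizer (N : Set G) := le_centralizer N
  have key : ∀ K : Subgroup G, K.Normal → K ≤ centralizer (N : Set G) → K ⊓ M = ⊥ := by
    intro K hK hKC
    have h4 : ∀ K : Subgroup G, K.Normal → K ≤ centralizer (N : Set G) → (K ⊓ M).Normal := by
      intro K hK hKC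
      rw [← normalizer_eq_top_iff, eq_top_iff, ← hNM, sup_le_iff]
      constructor
      · refine le_trans ?_ (centralizer_le_normalizer _)
        exact le_centralizer_iff.1 (inf_le_left.trans hKC)
      · exact fun m hm => mem_normalizer_fintype fun x hx =>
          ⟨hK.conj_mem x hx.1 m, M.mul_mem (M.mul_mem hm hx.2) (M.inv_mem hm)⟩
    have h5 : N ⊓ M = ⊥ := by
      refine (hmin _ (h4 N hNn hNC) inf_le_left).resolve_right fun h => hM.1 ?_
      rw [← hNM, sup_eq_right.2 (inf_eq_left.1 h)]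
    by_contra hne
    apply h2 _ (h4 K hK hKC) hne
    rw [eq_bot_iff, ← h5]
    exact inf_le_inf_left _ inf_le_right
  rcases hmax M hM with h4 | h4
  · have hf : Function.Surjective ((QuotientGroup.mk' N).comp M.subtype) := by
      intro x
      obtain ⟨x, rfl⟩ := QuotientGroup.mk'_surjective N x
      obtain ⟨a, ha, m, hm, rfl⟩ := mem_sup_of_normal_left.1 (hNM ▸ mem_top x)
      exact ⟨⟨m, hm⟩, by simp [(QuotientGroup.eq_one_iff a).2 ha]⟩
    obtain ⟨K, hK, h5, k, h6⟩ := exists_compl_map hp.out hf h4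
    refine ⟨⊥, N, K.comap (QuotientGroup.mk' N), ⊤, inferInstance, hNn, inferInstance,
      inferInstance, le_rfl, bot_le, le_comap_mk' _ _, le_top, .refl _, pStep_bot_of_isPGroup hNp,
      ?_, pStep_top_of_index (k := k) (by rw [index_comap_mk', h6]), .refl _, fun _ => rfl⟩
    have := (qStep_bot_of_not_dvd hp.out h5).comap (QuotientGroup.mk' N)
    rwa [MonoidHom.comap_bot, QuotientGroup.ker_mk'] at this
  · have h5 : Nat.card N = p := by
      have h6 := index_eq_card_of_inf_eq_bot_of_sup_eq_top (key N hNn hNC) hNM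
      obtain ⟨k, hk⟩ := IsPGroup.iff_card.1 hNp
      rw [h6.index_eq_card] at h4
      exact (Nat.prime_dvd_prime_iff_eq h4 hp.out).1 (h4.dvd_of_dvd_pow hk.dvd)
    have h6 : centralizer (N : Set G) = N := by
      refine le_antisymm (fun x hx => ?_) hNC
      obtain ⟨a, ha, m, hm, rfl⟩ := mem_sup_of_normal_left.1 (hNM ▸ mem_top x)
      have : m ∈ centralizer (N : Set G) ⊓ M := ⟨(mul_mem_cancel_left (hNC ha)).1 hx, hm⟩
      rw [key _ inferInstance le_rfl, mem_bot] at this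
      rwa [this, mul_one]
    have h7 := index_centralizer_dvd_of_prime N hp.out h5
    rw [h6] at h7
    refine ⟨⊥, N, N, N, inferInstance, hNn, hNn, hNn, le_rfl, bot_le, le_rfl, le_rfl, .refl _,
      pStep_bot_of_isPGroup hNp, .refl _, .refl _, qStep_top_of_not_dvd hp.out fun h => ?_,
      fun h => ?_⟩
    · have := Nat.le_of_dvd (Nat.sub_pos_of_lt hp.out.one_lt) (h.trans h7)
      have := hp.out.pos
      omega
    · subst h
      exact index_eq_one.1 (Nat.dvd_one.1 h7)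

theorem chain2_of_maxNilOrPrime [Fact p.Prime] [Finite G] (hG : IsPSolvable p G)
    (h : MaxNilOrPrime p G) : Chain2 p (⊥ : Subgroup G) := chain2_aux _ G rfl hG h

end CfsgLib.SolvStruct
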